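import Mathlib
import Cfsg.Prelude.Def_Characters
import Cfsg.Agent.Lib.H4.CenterIndex
import Cfsg.Agent.Lib.H72.PGroupCenter
import Cfsg.Agent.Lib.H1.FrobSyl

/-!
# Faithful irreducible representations of `p`-groups (H4.FaithfulP)
-/

set_option autoImplicit false
open Cfsg Representation
open scoped ComplexConjugate

namespace H4.FaithfulP

universe u v w

variable {G : Type u} [Group G]

theorem isCyclic_center_of_faithful [Finite G] {V : Type v} [AddCommGroup V] [Module ℂ V]
    [FiniteDimensional ℂ V] (ρ : Representation ℂ G V) (hρ : ρ.IsIrreducible)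
    (hinj : Function.Injective ρ) : IsCyclic (Subgroup.center G) := by
  choose c hc using fun z : Subgroup.center G => H4.CenterIndex.exists_scalar_of_center ρ hρ z.2
  have hpos := H4.CharBasic.finrank_pos_of_isIrreducible hρ
  have hnt : Nontrivial V := Module.finrank_pos_iff.mp hpos
  have hsc : ∀ a b : ℂ, a • (LinearMap.id : V →ₗ[ℂ] V) = b • LinearMap.id → a = b := by
    intro a b h
    obtain ⟨v, hv⟩ := exists_ne (0 : V)
    have h1 := LinearMap.congr_fun h v
    simp only [LinearMap.smul_apply, LinearMap.id_apply] at h1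
    exact smul_left_injective ℂ hv h1
  let f : Subgroup.center G →* ℂ :=
    { toFun := c
      map_one' := by
        apply hsc
        rw [← hc, one_smul]
        exact map_one ρ
      map_mul' := by
        intro a b
        apply hsc
        rw [← hc]
        have : ρ ((a * b : Subgroup.center G) : G) = ρ a * ρ b := map_mul ρ _ _
        rw [this, hc, hc]
        ext v
        simp only [Module.End.mul_apply, LinearMap.smul_apply, LinearMap.id_apply, smul_smul,
          mul_comm] }
  refine isCyclic_of_injective_ringHom f ?_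
  intro a b hab
  apply Subtype.ext
  apply hinj
  rw [hc, hc]
  have : c a = c b := hab
  rw [this]

theorem faithful_of_isCyclic_center [Finite G] (p : ℕ) [hp : Fact p.Prime] (hG : IsPGroup p G)
    (hcyc : IsCyclic (Subgroup.center G)) :
    ∃ (n : ℕ) (ρ : Representation ℂ G (Fin n → ℂ)), ρ.IsIrreducible ∧ Function.Injective ρ := by
  rcases subsingleton_or_nontrivial G with hs | hnt
  · obtain ⟨n, ρ, hρ, -⟩ := H4.CharBasic.isIrrCharacter_one (G := G)
    exact ⟨n, ρ, hρ, fun a b _ => Subsingleton.elim a b⟩
  · have hZnt : Nontrivial (Subgroup.center G) := hG.center_nontrivial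
    have hZp : IsPGroup p (Subgroup.center G) := hG.to_subgroup _
    have hdvd : p ∣ Nat.card (Subgroup.center G) := by
      obtain ⟨k, hk0, hk⟩ := hZp.nontrivial_iff_card.mp hZnt
      rw [hk]; exact dvd_pow_self p hk0.ne'
    obtain ⟨z, hz⟩ := exists_prime_orderOf_dvd_card' p hdvd
    have hz1 : (z : G) ≠ 1 := by
      intro h
      have h1 : z = 1 := Subtype.ext h
      rw [h1, orderOf_one] at hz
      exact hp.out.one_lt.ne hz
    have hex : ∃ χ : G → ℂ, IsIrrCharacter G χ ∧ χ z ≠ χ 1 := by
      by_contra hcon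
      push Not at hcon
      exact hz1 (H18.CharQuot.eq_one_of_forall_irr hcon)
    obtain ⟨χ, ⟨n, ρ, hρ, rfl⟩, hne⟩ := hex
    refine ⟨n, ρ, hρ, ?_⟩
    rw [← MonoidHom.ker_eq_bot_iff]
    by_contra hker
    have h1 := H72.PGroupCenter.normal_inf_center_ne_bot hG (MonoidHom.ker ρ) hker
    have hnt' : Nontrivial (MonoidHom.ker ρ ⊓ Subgroup.center G : Subgroup G) :=
      (Subgroup.nontrivial_iff_ne_bot _).mpr h1
    obtain ⟨k, hk0, hk⟩ := (hG.to_subgroup (MonoidHom.ker ρ ⊓ Subgroup.center G)).nontrivial_iff_card.mp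
      hnt'
    have hdvd' : p ∣ Nat.card (MonoidHom.ker ρ ⊓ Subgroup.center G : Subgroup G) := by
      rw [hk]; exact dvd_pow_self p hk0.ne'
    obtain ⟨w, hw⟩ := exists_prime_orderOf_dvd_card' p hdvd'
    let w' : Subgroup.center G := ⟨w, w.2.2⟩
    have hw' : orderOf w' = p := by
      rw [← hw, ← Subgroup.orderOf_coe, ← Subgroup.orderOf_coe]
    have heq : Subgroup.zpowers z = Subgroup.zpowers w' := by
      apply H1.FrobSyl.eq_of_card_eq
      rw [Nat.card_zpowers, Nat.card_zpowers, hz, hw']
    have hzw : z ∈ Subgroup.zpowers w' := by rw [← heq]; exact Subgroup.mem_zpowers z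
    obtain ⟨i, hi⟩ := hzw
    have hzker : (z : G) ∈ MonoidHom.ker ρ := by
      have h2 : (z : G) = (w : G) ^ i := by
        rw [← hi]; rfl
      rw [h2]
      exact Subgroup.zpow_mem _ w.2.1 i
    apply hne
    have h3 : ρ (z : G) = 1 := hzker
    rw [Representation.character, Representation.character, h3, map_one ρ]

end H4.FaithfulP
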