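import Cfsg.Agent.Lib.H4.GWC2f
import Cfsg.Agent.Lib.H18.GWP1
import Cfsg.Agent.Lib.H18.GWP5
import Cfsg.Agent.Lib.H3.GWP2n
import Cfsg.Agent.Lib.H3.GWP6
import Cfsg.Agent.Lib.H74.GWP4

set_option autoImplicit false

/-! T-GW4, PART C2: `GenW`. -/

namespace H4.GW

open Cfsg Subgroup

universe u

variable {G : Type u} [Group G]

theorem genW [Finite G] {V : Subgroup G} (B : Base V) (two : Two V) : GenW V := by
  classical
  have := Fintype.ofFinite G
  have nil : Nil V := Two.nil two (fun v hv hv1 => B.Ce_ne_top hv hv1)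
  exact H18.GW.genW_of B (H18.GW.p1 B) (p2i B nil) (H3.GWP2n.p2n_of_p2x B (p2x B nil))
    (H74.GWP.p4 B (solvable_of_odd (odd_oc _))) (H3.GWP6.p6 B two)

end H4.GW
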