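import Mathlib
import Cfsg.Prelude.Def_Characters
import Cfsg.Agent.Lib.H4.FixedCount
import Cfsg.Agent.Lib.H4.Integral

/-!
# `|G| ≡ k(G) mod 16` for odd order (H4.OddMod16)
-/

set_option autoImplicit false
open Cfsg Representation
open scoped ComplexConjugate

namespace H4.OddMod16

open H4.CharBasic H4.CharOrth H4.CharCount H4.FixedCount

universe u

variable {G : Type u} [Group G]

/-- degree of an irreducible character as a natural number -/
noncomputable def deg (χ : IrrCharacter G) : ℕ := χ.2.choose

theorem deg_spec (χ : IrrCharacter G) : (χ : G → ℂ) 1 = deg χ := by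
  obtain ⟨ρ, hρ, h⟩ := χ.2.choose_spec
  have h1 := ρ.char_one
  rw [h] at h1
  rw [h1]
  simp [deg]

theorem deg_dvd_card [Finite G] (χ : IrrCharacter G) : deg χ ∣ Nat.card G := by
  obtain ⟨ρ, hρ, h⟩ := χ.2.choose_spec
  have := H4.Integral.degree_dvd_card ρ hρ
  simpa [deg] using this

theorem sum_deg_sq [Finite G] [Fintype (IrrCharacter G)] :
    ∑ χ : IrrCharacter G, deg χ ^ 2 = Nat.card G := by
  have h := sum_sq_degrees (G := G)
  simp only [deg_spec] at h
  exact_mod_cast h

theorem card_modEq [Finite G] (hodd : Odd (Nat.card G)) :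
    Nat.card G ≡ Nat.card (ConjClasses G) [MOD 16] := by
  classical
  have := Fintype.ofFinite G
  have := Fintype.ofFinite (IrrCharacter G)
  rw [← card_irr, ← sum_deg_sq, Nat.card_eq_fintype_card, ← Finset.card_univ,
    Finset.card_eq_sum_ones]
  have hd : ∀ χ : IrrCharacter G, ∃ a : ℕ, deg χ ^ 2 = 8 * a + 1 := by
    intro χ
    obtain ⟨c, hc⟩ := deg_dvd_card χ
    have ho : Odd (deg χ) := by
      rw [hc] at hodd
      exact (Nat.odd_mul.mp hodd).1
    obtain ⟨k, hk⟩ := ho
    obtain ⟨m, hm⟩ := Nat.even_mul_succ_self k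
    refine ⟨m, ?_⟩
    have hm' : k * (k + 1) = m + m := by simpa using hm
    rw [hk]
    nlinarith
  choose a ha using hd
  -- the sum of a over all irreducible characters is even
  let inv : IrrCharacter G → IrrCharacter G := fun χ =>
    ⟨fun g => conj ((χ : G → ℂ) g), isIrrCharacter_conj χ.2⟩
  have hinvdeg : ∀ χ, deg (inv χ) = deg χ := by
    intro χ
    have h1 := deg_spec (inv χ)
    have h2 := deg_spec χ
    have h3 : ((inv χ : IrrCharacter G) : G → ℂ) 1 = conj ((χ : G → ℂ) 1) := rfl
    rw [h3, h2, Complex.conj_natCast] at h1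
    exact_mod_cast h1.symm
  have hinva : ∀ χ, a (inv χ) = a χ := by
    intro χ
    have h1 := ha (inv χ)
    rw [hinvdeg, ha χ] at h1
    omega
  have heven : ((∑ χ : IrrCharacter G, a χ : ℕ) : ZMod 2) = 0 := by
    push_cast
    apply Finset.sum_involution (fun χ _ => inv χ)
    · intro χ _
      rw [hinva]
      have : (2 : ZMod 2) = 0 := rfl
      calc (a χ : ZMod 2) + (a χ : ZMod 2) = 2 * (a χ : ZMod 2) := by ring
        _ = 0 := by rw [this, zero_mul]
    · intro χ _ hne heq
      apply hne
      have hreal : ∀ g : G, ((χ : G → ℂ) g).im = 0 := by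
        intro g
        have := congrFun (congrArg Subtype.val heq) g
        exact Complex.conj_eq_iff_im.mp this
      have h1 := real_irr_eq_one hodd χ hreal
      have h2 := deg_spec χ
      rw [h1] at h2
      have h2' : (1 : ℂ) = deg χ := h2
      have h3 : deg χ = 1 := by exact_mod_cast h2'.symm
      have h4 := ha χ
      rw [h3] at h4
      have : a χ = 0 := by omega
      rw [this]; rfl
    · intro χ _; exact Finset.mem_univ _
    · intro χ _
      apply Subtype.ext
      ext g
      simp [inv]
  obtain ⟨m, hm⟩ := (ZMod.natCast_eq_zero_iff _ _).mp heven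
  have hsum : ∑ χ : IrrCharacter G, deg χ ^ 2 =
      8 * (∑ χ : IrrCharacter G, a χ) + ∑ χ : IrrCharacter G, 1 := by
    rw [Finset.mul_sum, ← Finset.sum_add_distrib]
    exact Finset.sum_congr rfl fun χ _ => ha χ
  rw [hsum, hm]
  have h16 : 8 * (2 * m) = 16 * m := by ring
  rw [h16, Nat.ModEq, Nat.add_comm, Nat.add_mul_mod_self_left]

end H4.OddMod16
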